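import Cfsg.Agent.Lib.Helper41.GL42.S57

/-!
# GL42 farm (S2553), pieces [C1], [C2], [C3]: no subgroup of order 1344 in `GL₄(2)` without
solvable normal subgroups
-/

set_option autoImplicit false

namespace Cfsg.Agent.Lib.Helper41.GL42

open Cfsg.Agent.Lib.Helper26.GL42 Matrix

/-- [C1] -/
theorem no_index_1344 {X : Type*} [Group X] [Finite X] (hc : Nat.card X = 1344) (hN : NSN X)
    (L : Subgroup X) (h : L.index = 3 ∨ L.index = 7) : False := by
  have hLc := Subgroup.card_mul_index L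
  rw [hc] at hLc
  have hsol : Group.IsSolvable L.normalCore := by
    have hd : Nat.card L.normalCore ∣ Nat.card L := Subgroup.card_dvd_of_le L.normalCore_le
    rcases h with h | h
    · rw [h] at hLc
      have : Nat.card L = 448 := by omega
      rw [this] at hd
      exact solvable_of_card_dvd 2 7 6 1 Nat.prime_two (by norm_num) (by simpa using hd)
    · rw [h] at hLc
      have : Nat.card L = 192 := by omega
      rw [this] at hd
      exact solvable_of_card_dvd 2 3 6 1 Nat.prime_two (by norm_num) (by simpa using hd)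
  have hbot := hN _ L.normalCore_normal hsol
  have hdvd : L.normalCore.index ∣ Nat.factorial L.index := by
    rw [Subgroup.normalCore_eq_ker, Subgroup.index_ker, Subgroup.index_eq_card, ← Nat.card_perm]
    exact Subgroup.card_subgroup_dvd_card (MulAction.toPermHom X (X ⧸ L)).range
  rw [hbot, Subgroup.index_bot, hc] at hdvd
  rcases h with h | h <;> rw [h] at hdvd <;> revert hdvd <;> decide

theorem card_dual : ∀ v : Fin 4 → ZMod 2, v ≠ 0 →
    Fintype.card {u : Fin 4 → ZMod 2 // u ≠ 0 ∧ u ⬝ᵥ v = 0} = 7 := by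
  decide +kernel

set_option synthInstance.maxHeartbeats 400000 in
set_option synthInstance.maxSize 1024 in
theorem perp_perp : ∀ v : Fin 4 → ZMod 2, v ≠ 0 → ∀ x : Fin 4 → ZMod 2,
    (∀ u : Fin 4 → ZMod 2, u ≠ 0 → u ⬝ᵥ v = 0 → u ⬝ᵥ x = 0) → x = 0 ∨ x = v := by
  decide +kernel

theorem card_nonzero : Fintype.card {w : Fin 4 → ZMod 2 // w ≠ 0} = 15 := by
  decide +kernel

/-- the matrix of an element of `GL` -/
abbrev mt (g : GL (Fin 4) (ZMod 2)) : Matrix (Fin 4) (Fin 4) (ZMod 2) := g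

theorem mt_mul (g h : GL (Fin 4) (ZMod 2)) : mt (g * h) = mt g * mt h := rfl

theorem mt_one : mt 1 = 1 := rfl

theorem mt_inv_mul (g : GL (Fin 4) (ZMod 2)) : mt g⁻¹ * mt g = 1 := by
  rw [← mt_mul, inv_mul_cancel, mt_one]

theorem mt_mul_inv (g : GL (Fin 4) (ZMod 2)) : mt g * mt g⁻¹ = 1 := by
  rw [← mt_mul, mul_inv_cancel, mt_one]

/-- the action of a subgroup fixing `v` on the nonzero functionals vanishing at `v` -/
@[instance_reducible] def dualAct (H : Subgroup (GL (Fin 4) (ZMod 2))) (v : Fin 4 → ZMod 2)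
    (hfix : ∀ g ∈ H, (mt g).mulVec v = v) :
    MulAction H {u : Fin 4 → ZMod 2 // u ≠ 0 ∧ u ⬝ᵥ v = 0} where
  smul g u := ⟨u.1 ᵥ* mt (g⁻¹ : H), by
    constructor
    · intro h0
      apply u.2.1
      have : (u.1 ᵥ* mt (g⁻¹ : H)) ᵥ* mt (g : GL (Fin 4) (ZMod 2)) = 0 := by
        rw [h0, Matrix.zero_vecMul]
      rw [Matrix.vecMul_vecMul] at this
      have h1 : mt ((g⁻¹ : H) : GL (Fin 4) (ZMod 2)) * mt (g : GL (Fin 4) (ZMod 2)) = 1 :=
        mt_inv_mul _
      rwa [h1, Matrix.vecMul_one] at this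
    · rw [← Matrix.dotProduct_mulVec, hfix _ (g⁻¹ : H).2]
      exact u.2.2⟩
  one_smul u := by
    apply Subtype.ext
    change u.1 ᵥ* mt ((1 : H)⁻¹ : H) = u.1
    rw [inv_one]
    exact Matrix.vecMul_one _
  mul_smul g h u := by
    apply Subtype.ext
    change u.1 ᵥ* mt ((g * h)⁻¹ : H) = (u.1 ᵥ* mt (h⁻¹ : H)) ᵥ* mt (g⁻¹ : H)
    rw [Matrix.vecMul_vecMul, _root_.mul_inv_rev]
    rfl

/-- [C2] -/
theorem fix_vec_1344 (H : Subgroup (GL (Fin 4) (ZMod 2))) (hc : Nat.card H = 1344) (hN : NSN H)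
    (v : Fin 4 → ZMod 2) (hv : v ≠ 0)
    (hfix : ∀ g ∈ H, (g : Matrix (Fin 4) (Fin 4) (ZMod 2)).mulVec v = v) : False := by
  let act := dualAct H v hfix
  let φ : H →* Equiv.Perm {u : Fin 4 → ZMod 2 // u ≠ 0 ∧ u ⬝ᵥ v = 0} := MulAction.toPermHom _ _
  have hsq : ∀ g ∈ φ.ker, g * g = 1 := by
    intro g hg
    have hu : ∀ u : Fin 4 → ZMod 2, u ≠ 0 → u ⬝ᵥ v = 0 → u ᵥ* mt (g⁻¹ : H) = u := by
      intro u hu0 huv
      have h1 : φ g ⟨u, hu0, huv⟩ = ⟨u, hu0, huv⟩ := by
        rw [MonoidHom.mem_ker.1 hg]; rfl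
      exact congrArg Subtype.val h1
    have hw : ∀ w : Fin 4 → ZMod 2, (mt (g⁻¹ : H)).mulVec w - w = 0 ∨
        (mt (g⁻¹ : H)).mulVec w - w = v := by
      intro w
      apply perp_perp v hv
      intro u hu0 huv
      rw [dotProduct_sub, Matrix.dotProduct_mulVec, hu u hu0 huv, sub_self]
    have hAv : (mt (g⁻¹ : H)).mulVec v = v := hfix _ (g⁻¹ : H).2
    have h2 : ∀ x : Fin 4 → ZMod 2, x + x = 0 := by decide +kernel
    have hAA : mt (g⁻¹ : H) * mt (g⁻¹ : H) = 1 := by
      apply Matrix.ext_of_mulVec_single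
      intro i
      generalize (Pi.single i 1 : Fin 4 → ZMod 2) = w
      rw [← Matrix.mulVec_mulVec, Matrix.one_mulVec]
      rcases hw w with h | h
      · rw [sub_eq_zero] at h
        rw [h, h]
      · have h' : (mt (g⁻¹ : H)).mulVec w = v + w := by rw [← h]; abel
        rw [h', Matrix.mulVec_add, hAv, h', ← add_assoc, h2, zero_add]
    have h3 : (g⁻¹ * g⁻¹ : H) = 1 := by
      apply Subtype.ext
      apply Units.ext
      exact hAA
    have h4 : (g * g)⁻¹ = 1 := by rw [_root_.mul_inv_rev]; exact h3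
    exact inv_eq_one.1 h4
  have hsol : Group.IsSolvable φ.ker := by
    apply Group.isSolvable_of_comm
    intro a b
    have ha : a * a = 1 := Subtype.ext (hsq a a.2)
    have hb : b * b = 1 := Subtype.ext (hsq b b.2)
    have hab : (a * b) * (a * b) = 1 := Subtype.ext (hsq (a * b) (a * b).2)
    calc a * b = a * ((a * b) * (a * b)) * b := by rw [hab, mul_one]
      _ = (a * a) * (b * a) * (b * b) := by group
      _ = b * a := by rw [ha, hb, one_mul, mul_one]
  have hbot := hN _ inferInstance hsol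
  have hinj : Function.Injective φ := (MonoidHom.ker_eq_bot_iff φ).1 hbot
  have hdvd := Subgroup.card_dvd_of_injective φ hinj
  rw [hc, Nat.card_perm, Nat.card_eq_fintype_card, card_dual v hv] at hdvd
  revert hdvd
  decide

/-- the natural action of a subgroup of `GL₄(2)` on the nonzero vectors -/
@[instance_reducible] def vecAct (H : Subgroup (GL (Fin 4) (ZMod 2))) :
    MulAction H {w : Fin 4 → ZMod 2 // w ≠ 0} where
  smul g w := ⟨(mt g).mulVec w.1, by
    intro h0
    apply w.2
    have : (mt (g⁻¹ : H)).mulVec ((mt g).mulVec w.1) = 0 := by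
      rw [h0, Matrix.mulVec_zero]
    rw [Matrix.mulVec_mulVec] at this
    have h1 : mt ((g⁻¹ : H) : GL (Fin 4) (ZMod 2)) * mt (g : GL (Fin 4) (ZMod 2)) = 1 :=
      mt_inv_mul _
    rwa [h1, Matrix.one_mulVec] at this⟩
  one_smul w := by
    apply Subtype.ext
    exact Matrix.one_mulVec w.1
  mul_smul g h w := by
    apply Subtype.ext
    change (mt (g * h : H)).mulVec w.1 = (mt g).mulVec ((mt h).mulVec w.1)
    rw [Matrix.mulVec_mulVec]
    rfl

/-- [C3] -/
theorem no1344 (H : Subgroup (GL (Fin 4) (ZMod 2))) (hc : Nat.card H = 1344) (hN : NSN H) :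
    False := by
  let act := vecAct H
  have : Fact (Nat.Prime 2) := ⟨Nat.prime_two⟩
  obtain ⟨S⟩ : Nonempty (Sylow 2 H) := inferInstance
  have hSc : 2 ^ 6 ∣ Nat.card S := S.pow_dvd_card_of_pow_dvd_card (by rw [hc]; decide)
  obtain ⟨v, hv⟩ := S.isPGroup'.nonempty_fixed_point_of_prime_not_dvd_card
    {w : Fin 4 → ZMod 2 // w ≠ 0} (by rw [Nat.card_eq_fintype_card, card_nonzero]; decide)
  have hSL : (S : Subgroup H) ≤ MulAction.stabilizer H v := by
    intro g hg
    exact hv ⟨g, hg⟩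
  have hidx : (MulAction.stabilizer H v).index ∣ 21 := by
    have h1 := Subgroup.card_mul_index (MulAction.stabilizer H v)
    have h2 : 2 ^ 6 ∣ Nat.card (MulAction.stabilizer H v) :=
      hSc.trans (Subgroup.card_dvd_of_le hSL)
    obtain ⟨k, hk⟩ := h2
    rw [hk, hc] at h1
    refine ⟨k, ?_⟩
    have h3 : 64 * ((MulAction.stabilizer H v).index * k) = 64 * 21 := by
      calc 64 * ((MulAction.stabilizer H v).index * k)
          = 2 ^ 6 * k * (MulAction.stabilizer H v).index := by ring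
        _ = 64 * 21 := by rw [h1]
    omega
  have hle : (MulAction.stabilizer H v).index ≤ 15 := by
    rw [MulAction.index_stabilizer, ← card_nonzero, ← Nat.card_eq_fintype_card,
      ← Nat.card_coe_set_eq]
    exact Nat.card_le_card_of_injective _ Subtype.val_injective
  have hcases : (MulAction.stabilizer H v).index = 1 ∨ (MulAction.stabilizer H v).index = 3 ∨
      (MulAction.stabilizer H v).index = 7 := by
    generalize (MulAction.stabilizer H v).index = m at hidx hle
    interval_cases m <;> omega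
  rcases hcases with h | h | h
  · rw [Subgroup.index_eq_one] at h
    refine fix_vec_1344 H hc hN v.1 v.2 ?_
    intro g hg
    have h1 : (⟨g, hg⟩ : H) ∈ MulAction.stabilizer H v := by rw [h]; trivial
    exact congrArg Subtype.val (MulAction.mem_stabilizer_iff.1 h1)
  · exact no_index_1344 hc hN _ (Or.inl h)
  · exact no_index_1344 hc hN _ (Or.inr h)

end Cfsg.Agent.Lib.Helper41.GL42
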