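import Cfsg.Agent.Lib.Helper41.GL42.SY
import Cfsg.Agent.S0144
import Cfsg.Agent.S0989
import Cfsg.Agent.S0990

/-!
# GL42 farm (S2553), pieces [S5], [S7]: orders of nonsolvable subgroups of `S₅`, `S₆`, `A₈`
-/

set_option autoImplicit false

namespace Cfsg.Agent.Lib.Helper41.GL42

/-- a group whose order divides `p ^ a * q ^ b` is solvable -/
theorem solvable_of_card_dvd {G : Type*} [Group G] [Finite G] (p q a b : ℕ) (hp : p.Prime)
    (hq : q.Prime) (h : Nat.card G ∣ p ^ a * q ^ b) : Group.IsSolvable G := by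
  obtain ⟨k₁, k₂, h1, h2, h3⟩ := (Nat.dvd_mul).1 h
  obtain ⟨i, -, rfl⟩ := (Nat.dvd_prime_pow hp).1 h1
  obtain ⟨j, -, rfl⟩ := (Nat.dvd_prime_pow hq).1 h2
  exact Cfsg.Agent.S0144.result p q i j hp hq h3.symm

/-- the common core of [S5] and [S7] -/
theorem sylow_count_ns {Γ : Type*} [Group Γ] [Finite Γ] (K : Subgroup Γ) (p : ℕ) [Fact p.Prime]
    (a b : ℕ) (hK : Nat.card K ∣ p * (2 ^ a * 3 ^ b)) (hpp : ¬ p ^ 2 ∣ Nat.card Γ)
    (P₀ : Sylow p Γ) (hns : ¬ Group.IsSolvable K) :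
    ∃ d n : ℕ, p ∣ d ∧ d ≠ p ∧ d ∣ Nat.card (Subgroup.normalizer ((P₀ : Subgroup Γ) : Set Γ)) ∧
      n % p = 1 ∧ Nat.card K = d * n := by
  have hpr : p.Prime := Fact.out
  have hp : p ∣ Nat.card K := by
    by_contra hcon
    apply hns
    have hco : Nat.Coprime (Nat.card K) p := ((Nat.Prime.coprime_iff_not_dvd hpr).2 hcon).symm
    exact solvable_of_card_dvd 2 3 a b Nat.prime_two Nat.prime_three (hco.dvd_of_dvd_mul_left hK)
  obtain ⟨d, n, h1, h2, h3, h4, h5⟩ := sylow_count K p hp hpp P₀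
  refine ⟨d, n, h1, ?_, h2, h3, h4⟩
  intro hd
  obtain ⟨Q, hQn, hQc⟩ := h5 hd
  apply hns
  have hQs : Group.IsSolvable Q := by
    apply solvable_of_card_dvd 2 3 a b Nat.prime_two Nat.prime_three
    rw [← hQc, mul_comm] at hK
    exact Nat.dvd_of_mul_dvd_mul_left hpr.pos hK
  have hquot : Group.IsSolvable (K ⧸ Q) := by
    have hc : Nat.card (K ⧸ Q) = p := by
      have h := Subgroup.card_mul_index Q
      rw [← hQc] at h
      have hpos : 0 < Nat.card Q := Nat.card_pos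
      exact Nat.eq_of_mul_eq_mul_left hpos h
    exact Cfsg.Agent.S0144.result p 2 1 0 hpr Nat.prime_two (by simpa using hc)
  exact (Group.isSolvable_iff_subgroup_quotient Q).2 ⟨hQs, hquot⟩

theorem arith5 : ∀ d ∈ Nat.divisors 20, ∀ n ∈ Nat.divisors 720, 5 ∣ d → d ≠ 5 → n % 5 = 1 →
    d * n ∣ 720 → d * n = 10 ∨ d * n = 20 ∨ d * n = 60 ∨ d * n = 120 ∨ d * n = 360 ∨
      d * n = 720 := by
  decide +kernel

theorem arith5' : ∀ d ∈ Nat.divisors 10, ∀ n ∈ Nat.divisors 720, 5 ∣ d → d ≠ 5 → n % 5 = 1 →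
    d * n ∣ 720 → d * n = 10 ∨ d * n = 60 ∨ d * n = 360 := by
  decide +kernel

theorem arith7 : ∀ d ∈ Nat.divisors 21, ∀ n ∈ Nat.divisors 4032, 7 ∣ d → d ≠ 7 → n % 7 = 1 →
    d * n ∣ 4032 → 8 ∣ d * n → d * n = 168 ∨ d * n = 1344 := by
  decide +kernel

/-- the Sylow subgroup of the alternating group and the order of its normalizer -/
theorem alt_sylow {Ω : Type*} [Fintype Ω] [DecidableEq Ω] (p : ℕ) [Fact p.Prime] (hp2 : p ≠ 2)
    (hΩ : Fintype.card Ω = p ∨ Fintype.card Ω = p + 1) :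
    ∃ P₀ : Sylow p (alternatingGroup Ω),
      2 * Nat.card (Subgroup.normalizer ((P₀ : Subgroup (alternatingGroup Ω)) :
        Set (alternatingGroup Ω))) = p * (p - 1) := by
  have hpr : p.Prime := Fact.out
  obtain ⟨P⟩ : Nonempty (Sylow p (Equiv.Perm Ω)) := inferInstance
  have h2 : 2 ≤ Fintype.card Ω := by
    have := hpr.two_le
    omega
  obtain ⟨hle, hc⟩ := Cfsg.Agent.S0990.result h2 p hp2 P
  refine ⟨P.subtype hle, ?_⟩
  rw [Sylow.coe_subtype, hc]
  exact Cfsg.Agent.S0989.result p hΩ P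

theorem not_solvable_subgroupOf {G : Type*} [Group G] {K A : Subgroup G} (hKA : K ≤ A)
    (hns : ¬ Group.IsSolvable K) : ¬ Group.IsSolvable (K.subgroupOf A) := by
  intro hs
  apply hns
  exact Group.isSolvable_of_isSolvable_injective
    (f := (Subgroup.subgroupOfEquivOfLe hKA).symm.toMonoidHom)
    (Subgroup.subgroupOfEquivOfLe hKA).symm.injective

theorem card_subgroupOf_of_le {G : Type*} [Group G] {K A : Subgroup G} (hKA : K ≤ A) :
    Nat.card (K.subgroupOf A) = Nat.card K :=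
  Nat.card_congr (Subgroup.subgroupOfEquivOfLe hKA).toEquiv

/-- [S5] -/
theorem card_of_not_solvable_56 {Ω : Type*} [Fintype Ω] [DecidableEq Ω]
    (hΩ : Fintype.card Ω = 5 ∨ Fintype.card Ω = 6) (K : Subgroup (Equiv.Perm Ω))
    (hns : ¬ Group.IsSolvable K) :
    (Nat.card K = 60 ∨ Nat.card K = 120 ∨ Nat.card K = 360 ∨ Nat.card K = 720) ∧
      (K ≤ alternatingGroup Ω → Nat.card K = 60 ∨ Nat.card K = 360) := by
  have : Fact (Nat.Prime 5) := ⟨by norm_num⟩
  have hΓ : Nat.card (Equiv.Perm Ω) = 120 ∨ Nat.card (Equiv.Perm Ω) = 720 := by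
    rw [Nat.card_eq_fintype_card, Fintype.card_perm]
    rcases hΩ with h | h <;> rw [h]
    · left; decide
    · right; decide
  have hΓ720 : Nat.card (Equiv.Perm Ω) ∣ 720 := by
    rcases hΓ with h | h <;> rw [h] <;> decide
  have hΓ25 : ¬ 5 ^ 2 ∣ Nat.card (Equiv.Perm Ω) := by
    rcases hΓ with h | h <;> rw [h] <;> decide
  have hK720 : Nat.card K ∣ 720 := (Subgroup.card_subgroup_dvd_card K).trans hΓ720
  have h10 : Nat.card K ≠ 10 := by
    intro h
    exact hns (Cfsg.Agent.S0144.result 2 5 1 1 Nat.prime_two (by norm_num) (by rw [h]; norm_num))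
  have h20 : Nat.card K ≠ 20 := by
    intro h
    exact hns (Cfsg.Agent.S0144.result 2 5 2 1 Nat.prime_two (by norm_num) (by rw [h]; norm_num))
  constructor
  · obtain ⟨P₀⟩ : Nonempty (Sylow 5 (Equiv.Perm Ω)) := inferInstance
    obtain ⟨d, n, h1, h2, h3, h4, h5⟩ := sylow_count_ns K 5 4 2 (by simpa using hK720) hΓ25 P₀ hns
    rw [Cfsg.Agent.S0989.result 5 hΩ P₀] at h3
    have hn : n ∣ 720 := (Dvd.intro_left d h5.symm).trans hK720
    have := arith5 d (Nat.mem_divisors.2 ⟨h3, by norm_num⟩) n (Nat.mem_divisors.2 ⟨hn, by norm_num⟩)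
      h1 h2 h4 (h5 ▸ hK720)
    rw [← h5] at this
    tauto
  · intro hA
    obtain ⟨P₀, hP₀⟩ := alt_sylow (Ω := Ω) 5 (by norm_num) hΩ
    have hP₀' : Nat.card (Subgroup.normalizer ((P₀ : Subgroup (alternatingGroup Ω)) :
        Set (alternatingGroup Ω))) = 10 := by omega
    have hAc : Nat.card (alternatingGroup Ω) ∣ Nat.card (Equiv.Perm Ω) :=
      Subgroup.card_subgroup_dvd_card _
    obtain ⟨d, n, h1, h2, h3, h4, h5⟩ := sylow_count_ns (K.subgroupOf (alternatingGroup Ω)) 5 4 2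
      (by rw [card_subgroupOf_of_le hA]; simpa using hK720) (fun h => hΓ25 (h.trans hAc)) P₀
      (not_solvable_subgroupOf hA hns)
    rw [hP₀'] at h3
    rw [card_subgroupOf_of_le hA] at h5
    have hn : n ∣ 720 := (Dvd.intro_left d h5.symm).trans hK720
    have := arith5' d (Nat.mem_divisors.2 ⟨h3, by norm_num⟩) n
      (Nat.mem_divisors.2 ⟨hn, by norm_num⟩) h1 h2 h4 (h5 ▸ hK720)
    rw [← h5] at this
    tauto

/-- [S7] -/
theorem card_of_not_solvable_8 {Ω : Type*} [Fintype Ω] [DecidableEq Ω]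
    (hΩ : Fintype.card Ω = 8) (K : Subgroup (Equiv.Perm Ω)) (hA : K ≤ alternatingGroup Ω)
    (hns : ¬ Group.IsSolvable K) (h5 : ¬ 5 ∣ Nat.card K) (h8 : 8 ∣ Nat.card K) :
    Nat.card K = 168 ∨ Nat.card K = 1344 := by
  have : Fact (Nat.Prime 7) := ⟨by norm_num⟩
  have hΓ : Nat.card (Equiv.Perm Ω) = 40320 := by
    rw [Nat.card_eq_fintype_card, Fintype.card_perm, hΩ]
    decide
  have hAc : Nat.card (alternatingGroup Ω) ∣ 40320 := by
    rw [← hΓ]; exact Subgroup.card_subgroup_dvd_card _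
  have hA2 : 2 * Nat.card (alternatingGroup Ω) = 40320 := by
    have : Nontrivial Ω := Fintype.one_lt_card_iff_nontrivial.1 (by omega)
    rw [← hΓ, Nat.card_eq_fintype_card, Nat.card_eq_fintype_card,
      two_mul_card_alternatingGroup]
  have hAc' : Nat.card (alternatingGroup Ω) = 20160 := by omega
  have hK1 : Nat.card K ∣ 20160 := by
    rw [← hAc', ← card_subgroupOf_of_le hA]
    exact Subgroup.card_subgroup_dvd_card _
  have hK2 : Nat.card K ∣ 4032 := by
    have hco : Nat.Coprime (Nat.card K) 5 :=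
      ((Nat.Prime.coprime_iff_not_dvd (by norm_num)).2 h5).symm
    exact hco.dvd_of_dvd_mul_left (by simpa using hK1)
  obtain ⟨P₀, hP₀⟩ := alt_sylow (Ω := Ω) 7 (by norm_num) (Or.inr hΩ)
  have hP₀' : Nat.card (Subgroup.normalizer ((P₀ : Subgroup (alternatingGroup Ω)) :
      Set (alternatingGroup Ω))) = 21 := by omega
  obtain ⟨d, n, h1, h2, h3, h4, h5'⟩ := sylow_count_ns (K.subgroupOf (alternatingGroup Ω)) 7 6 2
    (by rw [card_subgroupOf_of_le hA]; simpa using hK2) (by rw [hAc']; decide) P₀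
    (not_solvable_subgroupOf hA hns)
  rw [hP₀'] at h3
  rw [card_subgroupOf_of_le hA] at h5'
  have hn : n ∣ 4032 := (Dvd.intro_left d h5'.symm).trans hK2
  have := arith7 d (Nat.mem_divisors.2 ⟨h3, by norm_num⟩) n
    (Nat.mem_divisors.2 ⟨hn, by norm_num⟩) h1 h2 h4 (h5' ▸ hK2) (h5' ▸ h8)
  rw [← h5'] at this
  exact this

end Cfsg.Agent.Lib.Helper41.GL42
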