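import Cfsg.Agent.Lib.Helper26.GL42.Api

/-!
# GL42 farm (S2553), piece [SY]: Sylow counting for a prime dividing the order exactly once
-/

set_option autoImplicit false

namespace Cfsg.Agent.Lib.Helper41.GL42

/-- a Sylow `p`-subgroup has order `p` when `p ∣ |G|` and `p² ∤ |G|` -/
theorem sylow_card_eq_prime {G : Type*} [Group G] [Finite G] (p : ℕ) [Fact p.Prime]
    (hp : p ∣ Nat.card G) (hpp : ¬ p ^ 2 ∣ Nat.card G) (P : Sylow p G) :
    Nat.card P = p := by
  have hpr : p.Prime := Fact.out
  obtain ⟨n, hn⟩ := IsPGroup.iff_card.mp P.isPGroup'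
  have h1 : p ^ 1 ∣ Nat.card P := P.pow_dvd_card_of_pow_dvd_card (by simpa using hp)
  have h2 : Nat.card P ∣ Nat.card G := Subgroup.card_subgroup_dvd_card _
  have hn1 : 1 ≤ n := by
    rw [hn] at h1
    exact (Nat.pow_dvd_pow_iff_le_right hpr.one_lt).1 h1
  have hn2 : n < 2 := by
    by_contra hcon
    apply hpp
    refine dvd_trans (pow_dvd_pow p (by omega : 2 ≤ n)) ?_
    rw [← hn]; exact h2
  have : n = 1 := by omega
  rw [hn, this, pow_one]

/-- [SY] -/
theorem sylow_count {Γ : Type*} [Group Γ] [Finite Γ] (K : Subgroup Γ) (p : ℕ) [Fact p.Prime]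
    (hp : p ∣ Nat.card K) (hpp : ¬ p ^ 2 ∣ Nat.card Γ) (P₀ : Sylow p Γ) :
    ∃ d n : ℕ, p ∣ d ∧ d ∣ Nat.card (Subgroup.normalizer ((P₀ : Subgroup Γ) : Set Γ)) ∧
      n % p = 1 ∧ Nat.card K = d * n ∧
      (d = p → ∃ Q : Subgroup K, Q.Normal ∧ Nat.card Q * p = Nat.card K) := by
  have hpr : p.Prime := Fact.out
  have hKΓ : Nat.card K ∣ Nat.card Γ := Subgroup.card_subgroup_dvd_card _
  have hppK : ¬ p ^ 2 ∣ Nat.card K := fun h => hpp (h.trans hKΓ)
  have hpΓ : p ∣ Nat.card Γ := hp.trans hKΓ
  obtain ⟨P⟩ : Nonempty (Sylow p K) := inferInstance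
  have hPc : Nat.card P = p := sylow_card_eq_prime p hp hppK P
  refine ⟨Nat.card (Subgroup.normalizer ((P : Subgroup K) : Set K)), Nat.card (Sylow p K),
    ?_, ?_, ?_, ?_, ?_⟩
  · have h := Subgroup.card_dvd_of_le (Subgroup.le_normalizer (H := (P : Subgroup K)))
    rwa [hPc] at h
  · -- the image of `P` in `Γ` is a Sylow subgroup
    have hpg : IsPGroup p ((P : Subgroup K).map K.subtype) := P.isPGroup'.map _
    obtain ⟨P₁, hP₁⟩ := hpg.exists_le_sylow
    have hP₁c : Nat.card P₁ = p := sylow_card_eq_prime p hpΓ hpp P₁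
    have hmapc : Nat.card ((P : Subgroup K).map K.subtype) = p := by
      rw [Subgroup.card_map_of_injective K.subtype_injective]; exact hPc
    have heq : (P : Subgroup K).map K.subtype = (P₁ : Subgroup Γ) :=
      Subgroup.eq_of_le_of_card_ge hP₁ (by rw [hmapc]; exact hP₁c.le)
    have hidx : (Subgroup.normalizer ((P₁ : Subgroup Γ) : Set Γ)).index
        = (Subgroup.normalizer ((P₀ : Subgroup Γ) : Set Γ)).index := by
      exact (Sylow.card_eq_index_normalizer P₁).symm.trans (Sylow.card_eq_index_normalizer P₀)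
    have hcard : Nat.card (Subgroup.normalizer ((P₁ : Subgroup Γ) : Set Γ))
        = Nat.card (Subgroup.normalizer ((P₀ : Subgroup Γ) : Set Γ)) := by
      have h1 := Subgroup.card_mul_index (Subgroup.normalizer ((P₁ : Subgroup Γ) : Set Γ))
      have h0 := Subgroup.card_mul_index (Subgroup.normalizer ((P₀ : Subgroup Γ) : Set Γ))
      rw [hidx] at h1
      have hpos : 0 < (Subgroup.normalizer ((P₀ : Subgroup Γ) : Set Γ)).index :=
        Nat.pos_of_ne_zero Subgroup.index_ne_zero_of_finite
      exact Nat.eq_of_mul_eq_mul_right hpos (h1.trans h0.symm)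
    have hm : Nat.card ((Subgroup.normalizer ((P : Subgroup K) : Set K)).map K.subtype)
        = Nat.card (Subgroup.normalizer ((P : Subgroup K) : Set K)) :=
      Subgroup.card_map_of_injective K.subtype_injective
    rw [← hcard, ← heq, ← hm]
    exact Subgroup.card_dvd_of_le (Subgroup.le_normalizer_map _)
  · have h := card_sylow_modEq_one p K
    rw [Nat.ModEq, Nat.mod_eq_of_lt hpr.one_lt] at h
    exact h
  · rw [Sylow.card_eq_index_normalizer P]
    exact (Subgroup.card_mul_index _).symm
  · intro hd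
    have hN : Subgroup.normalizer ((P : Subgroup K) : Set K) = (P : Subgroup K) :=
      (Subgroup.eq_of_le_of_card_ge Subgroup.le_normalizer (by rw [hd]; exact hPc.ge)).symm
    have hcyc : IsCyclic (P : Subgroup K) := isCyclic_of_prime_card hPc
    have hcomm : ∀ a ∈ (P : Subgroup K), ∀ b ∈ (P : Subgroup K), a * b = b * a := by
      intro a ha b hb
      have hmc : IsMulCommutative (P : Subgroup K) := IsCyclic.isMulCommutative
      have := mul_comm' (⟨a, ha⟩ : (P : Subgroup K)) ⟨b, hb⟩
      exact congrArg Subtype.val this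
    have hle : Subgroup.normalizer ((P : Subgroup K) : Set K)
        ≤ Subgroup.centralizer ((P : Subgroup K) : Set K) := by
      rw [hN]
      intro a ha
      rw [Subgroup.mem_centralizer_iff]
      intro b hb
      exact hcomm b hb a ha
    have hc := MonoidHom.ker_transferSylow_isComplement' P hle
    refine ⟨(MonoidHom.transferSylow P hle).ker, inferInstance, ?_⟩
    have := hc.card_mul_card
    rw [hPc] at this
    exact this

end Cfsg.Agent.Lib.Helper41.GL42
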